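import Mathlib

/-! Common moved vector for a commuting family of `p`-elements acting on a group of exponent prime
to `p`. -/

namespace Cfsg.Agent.Lib.S4850
universe u

theorem exists_vec_moved {Γ V : Type u} [Group Γ] [Finite Γ] [AddCommGroup V] [Finite V]
    [DistribMulAction Γ V] {p n : ℕ} [Fact p.Prime] (hn : n.Coprime p)
    (hVn : ∀ v : V, n • v = 0) (S : Set Γ)
    (hcomm : ∀ a ∈ S, ∀ b ∈ S, ∀ v : V, a • b • v = b • a • v)
    (hp : ∀ a ∈ S, ∃ k : ℕ, ∀ v : V, a ^ (p ^ k) • v = v)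
    (hmove : ∀ a ∈ S, ∃ v : V, a • v ≠ v) : ∃ v : V, ∀ a ∈ S, a • v ≠ v := by
  classical
  let moved : V → Set Γ := fun v => {a | a ∈ S ∧ a • v ≠ v}
  obtain ⟨v, hv⟩ : ∃ v, ∀ w, (moved w).ncard ≤ (moved v).ncard := by
    have hfin : (Set.range fun w => (moved w).ncard).Finite := Set.toFinite _
    obtain ⟨_, ⟨v, rfl⟩, hmax⟩ := Set.exists_max_image (Set.range fun w => (moved w).ncard) id hfin
      ⟨_, ⟨0, rfl⟩⟩
    exact ⟨v, fun w => hmax _ ⟨w, rfl⟩⟩
  refine ⟨v, fun a₀ ha₀ hfix => ?_⟩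
  obtain ⟨k, hk⟩ := hp a₀ ha₀
  obtain ⟨v₁, hv₁⟩ := hmove a₀ ha₀
  set N := p ^ k with hN
  have hcop : (N : ℕ).Coprime n := (Nat.Coprime.pow_right k hn).symm
  -- Bezout
  obtain ⟨c, d, hcd⟩ : ∃ c d : ℤ, (N : ℤ) * c + (n : ℤ) * d = 1 := by
    have := Int.gcd_eq_gcd_ab (N : ℤ) (n : ℤ)
    have h1 : Int.gcd (N : ℤ) (n : ℤ) = 1 := by
      simpa [Int.gcd_natCast_natCast] using hcop
    refine ⟨Int.gcdA N n, Int.gcdB N n, ?_⟩
    rw [h1] at this
    simpa using this.symm
  let T : V → V := fun w => ∑ i ∈ Finset.range N, a₀ ^ i • w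
  let e : V → V := fun w => c • T w
  have hT_add : ∀ u w, T (u + w) = T u + T w := fun u w => by
    simp [T, smul_add, Finset.sum_add_distrib]
  have he_add : ∀ u w, e (u + w) = e u + e w := fun u w => by
    simp [e, hT_add, smul_add]
  have he_zero : e 0 = 0 := by simp [e, T]
  have hT_a₀ : ∀ w, a₀ • T w = T w := fun w => by
    have h1 : ∑ i ∈ Finset.range (N + 1), a₀ ^ i • w = ∑ i ∈ Finset.range N, a₀ ^ (i + 1) • w + w := by
      rw [Finset.sum_range_succ']; simp
    have h2 : ∑ i ∈ Finset.range (N + 1), a₀ ^ i • w = T w + w := by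
      rw [Finset.sum_range_succ, hk w]
    have h3 : a₀ • T w = ∑ i ∈ Finset.range N, a₀ ^ (i + 1) • w := by
      simp only [T, Finset.smul_sum, smul_smul, pow_succ']
    rw [h3]
    have : ∑ i ∈ Finset.range N, a₀ ^ (i + 1) • w + w = T w + w := h1.symm.trans h2
    exact add_right_cancel this
  have he_a₀ : ∀ w, a₀ • e w = e w := fun w => by
    simp only [e]
    rw [smul_comm, hT_a₀]
  have hT_fix : ∀ w, a₀ • w = w → T w = N • w := fun w hw => by
    have hpow : ∀ i : ℕ, a₀ ^ i • w = w := fun i => by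
      induction i with
      | zero => simp
      | succ i ih => rw [pow_succ, mul_smul, hw, ih]
    simp [T, hpow]
  have hn0 : ∀ w : V, (n : ℤ) • w = 0 := fun w => by
    rw [natCast_zsmul]; exact hVn w
  have he_fix : ∀ w, a₀ • w = w → e w = w := fun w hw => by
    simp only [e]
    rw [hT_fix w hw]
    have : (1 : ℤ) • w = ((N : ℤ) * c + (n : ℤ) * d) • w := by rw [hcd]
    rw [one_smul, add_smul] at this
    have h2 : ((n : ℤ) * d) • w = d • ((n : ℤ) • w) := by rw [smul_smul, mul_comm]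
    rw [h2, hn0, smul_zero, add_zero] at this
    calc c • N • w = ((N : ℤ) * c) • w := by rw [← natCast_zsmul, smul_smul, mul_comm]
      _ = w := this.symm
  have he_idem : ∀ w, e (e w) = e w := fun w => he_fix _ (he_a₀ w)
  have he_sub : ∀ u w, e (u - w) = e u - e w := fun u w => by
    have h := he_add (u - w) w
    rw [sub_add_cancel] at h
    rw [h]; abel
  -- commutation with `S`
  have hpowc : ∀ a ∈ S, ∀ (i : ℕ) (w : V), a • (a₀ ^ i • w) = a₀ ^ i • a • w := fun a ha i w => by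
    induction i generalizing w with
    | zero => simp
    | succ i ih =>
      rw [pow_succ, mul_smul, mul_smul, ih, hcomm a ha a₀ ha₀]
  have he_comm : ∀ a ∈ S, ∀ w, a • e w = e (a • w) := fun a ha w => by
    simp only [e, T]
    rw [smul_comm, Finset.smul_sum]
    congr 1
    exact Finset.sum_congr rfl fun i _ => hpowc a ha i w
  set w₀ := v₁ - e v₁ with hw₀
  have he_w₀ : e w₀ = 0 := by rw [hw₀, he_sub, he_idem, sub_self]
  have ha₀w₀ : a₀ • w₀ ≠ w₀ := by
    intro h
    have h1 : w₀ = 0 := by rw [← he_fix _ h, he_w₀]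
    have h2 : v₁ = e v₁ := sub_eq_zero.mp (by rw [← hw₀]; exact h1)
    exact hv₁ (by rw [h2, he_a₀])
  have hev : e v = v := he_fix v hfix
  have hsub : moved v ⊂ moved (v + w₀) := by
    constructor
    · rintro a ⟨ha, hav⟩
      refine ⟨ha, fun h => hav ?_⟩
      have h1 := congrArg e h
      rw [smul_add, he_add, he_add, ← he_comm a ha, ← he_comm a ha, hev, he_w₀, smul_zero, add_zero,
        add_zero] at h1
      exact h1
    · intro h
      have h0 : a₀ ∈ moved (v + w₀) := by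
        refine ⟨ha₀, fun h => ha₀w₀ ?_⟩
        rw [smul_add, hfix] at h
        exact add_left_cancel h
      exact (h h0).2 hfix
  have := Set.ncard_lt_ncard hsub (Set.toFinite _)
  exact absurd (hv (v + w₀)) (not_le.mpr this)

end Cfsg.Agent.Lib.S4850
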